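import Cfsg.Agent.H437.Iso.Untw

/-!
# `F₄(u)` : an element of order `(u² + 1)(u - 1)` (helper18)
-/

set_option autoImplicit false

namespace Cfsg.Agent.R2.Spec.X4.H18

open CoxeterSystem Cfsg Cfsg.Lie Cfsg.Lie.ChevalleyDatum
open Cfsg.Agent.ChevalleyStructure.CoxeterGeomTypes
open Cfsg.Agent.BpExc.FamInst Cfsg.Agent.BpExc.RowsUntw Cfsg.Agent.Nodes.RGDChev Cfsg.Agent.BpExc.FamExt
open Cfsg.Agent.H378.AdjTab Cfsg.Agent.H378.CycTab Cfsg.Agent.H378.ExcAdj Cfsg.Agent.H378.ExcNear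
open Cfsg.Agent.H493.PGTorus Cfsg.Agent.H129.WData Cfsg.Agent.H360.Iso Cfsg.Agent.H437.Iso Cfsg.Agent

universe u

/-- the partial products -/
def LF4c : List (Fin 4 × Mat 4) := [
    (2, ![![1, 1, 1, 0],
        ![0, -1, -1, 0],
        ![0, 2, 1, 0],
        ![0, 0, 1, 1]]),
    (1, ![![1, 1, 0, 0],
        ![0, -1, 0, 0],
        ![0, 2, 1, 0],
        ![0, 0, 0, 1]])]

/-- the eigenvector -/
def VF4c : Fin (2 + 1) → Fin 4 → ℤ := ![![-1, -1, 0, 0],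
      ![0, -1, -1, 0],
      ![-1, 0, 0, 0]]

/-- the functional -/
def UF4c : Fin 4 → ℤ := ![0, -1, 1, 0]

/-- the polynomial -/
def kF4c : Fin (2 + 1) → ℤ := ![-1, 1, -1]

theorem chainF4c : ChainOK H378.AdjF4.Am LF4c := by decide +kernel

theorem eigF4c : EigOK (hd LF4c) kF4c VF4c UF4c := by decide +kernel

theorem pvF4c (q : ℤ) : pv kF4c q = (q ^ 2 + 1) * (q - 1) := by
  simp [pv, kF4c, Fin.sum_univ_succ]
  ring

theorem f4_orderC {F : Type u} [Field F] [Finite F] :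
    ∃ x : ↥(chevF4.group F), orderOf x = (Nat.card F ^ 2 + 1) * (Nat.card F - 1) := by
  let cs : CoxeterSystem CoxeterMatrix.F₄ CoxeterMatrix.F₄.Group := CoxeterMatrix.F₄.toCoxeterSystem
  have := finite_W f4T cs
  have h2 : 1 < Nat.card F := Finite.one_lt_card
  refine exists_order_one f4T cs inv_F4 H378.AdjF4.hA chainF4c eigF4c (Nat.mul_pos (by omega) (by omega)) ?_
  rw [pvF4c]
  push_cast [h2.le]
  exact dvd_rfl

/-- primes not adjacent to `2` -/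
theorem f4_near {F : Type u} [Field F] [Finite F] {r : ℕ} (hr : r.Prime) (h2 : r ≠ 2)
    (hd : r ∣ Nat.card ↥(chevF4.group F)) (hn : ¬ ∃ x : ↥(chevF4.group F), orderOf x = 2 * r) :
    (r : ℤ) ∣ ((Nat.card F : ℕ) : ℤ) ^ 4 + 1 ∨ (r : ℤ) ∣ ((Nat.card F : ℕ) : ℤ) ^ 4 - ((Nat.card F : ℕ) : ℤ) ^ 2 + 1 := by
  rcases adj_F4 F hr hd with h | ⟨-, -, -, x, y, hx, hy, hxy⟩ | h | h
  · exact absurd h h2
  · exfalso
    apply hn
    refine ⟨y * x, ?_⟩
    rw [hxy.symm.orderOf_mul_eq_mul_orderOf_of_coprime (by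
      rw [hx, hy]
      exact (Nat.coprime_primes Nat.prime_two hr).2 (Ne.symm h2)), hx, hy]
  · left
    have h3 := dvd8 hr h
    rwa [pv8] at h3
  · right
    have h3 := dvd12 hr h
    rwa [pv12] at h3

end Cfsg.Agent.R2.Spec.X4.H18
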